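import Cfsg.Agent.Lib.Helper60.F4.Tits
import Cfsg.Agent.Lib.Helper60.F4.ChkN2
import Cfsg.Agent.Lib.Helper60.Cert.Conj
import Cfsg.Agent.Lib.Helper60.TwoTrans

/-!
The Tits group has no faithful doubly transitive action: the counting criterion of
`TwoTrans` applied to the kernel-checked conjugacy certificates.
-/

set_option autoImplicit false

namespace Cfsg.Agent.Lib.Helper60.F4

open Cfsg Cfsg.Lie Cfsg.Agent.Lib.Helper60.Cert

theorem c3_spec : ∀ j, j + 1 < s3L.N →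
    Real model ψF Tg (c3w j) ∧ model.mulP (c3w j) (s3L.T 1) = model.mulP (s3L.T (j + 1)) (c3w j) := by
  intro j hj
  have h := allBelow_spec _ _ c3_ok j (by change j + 1 < 27 at hj; omega)
  simp only [chkC3, Bool.and_eq_true] at h
  exact ⟨real_Tg_of_pairT h.1, Nat.eq_of_beq_eq_true h.2⟩

theorem c5_spec : ∀ j, j + 1 < s5L.N →
    Real model ψF Tg (c5w j) ∧ model.mulP (c5w j) (s5L.T 1) = model.mulP (s5L.T (j + 1)) (c5w j) := by
  intro j hj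
  have h := allBelow_spec _ _ c5_ok j (by change j + 1 < 25 at hj; omega)
  simp only [chkC5, Bool.and_eq_true] at h
  exact ⟨real_Tg_of_pairT h.1, Nat.eq_of_beq_eq_true h.2⟩

theorem yn_spec : ∀ j < s5L.N, yperm j < s5L.N ∧
    model.mulP (s5L.T j) yP = model.mulP yP (s5L.T (yperm j)) := by
  intro j hj
  have h := allBelow_spec _ _ yn_ok j hj
  simp only [chkYN, Bool.and_eq_true, Nat.blt_eq] at h
  exact ⟨h.1, Nat.eq_of_beq_eq_true h.2⟩

theorem hex5 : ∀ l < s5L.r, ∃ g, ψF g = model.toM (s5L.gen l) := by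
  intro l hl
  obtain ⟨g, _, hg⟩ := s5_hgen l hl
  exact ⟨g, hg⟩

/-- the certificate for the subgroup `Tg` -/
theorem tg_cert : ∃ (P3 P5 : Subgroup Tg) (y3 y5 y : Tg), Nat.card P3 = 27 ∧ Nat.card P5 = 25 ∧
    y3 ≠ 1 ∧ y5 ∈ P5 ∧ y5 ≠ 1 ∧ (∀ a ∈ P3, a ≠ 1 → IsConj y3 a) ∧
    (∀ a ∈ P5, a ≠ 1 → IsConj y5 a) ∧ IsConj y3 y ∧ y ^ 3 = 1 ∧ ∀ a ∈ P5, y⁻¹ * a * y ∈ P5 := by
  obtain ⟨P3, y3, h27, _, hy31, hy3v, hc3, _⟩ :=
    conj_class_cert (D := s3L) ψF_inj Tg s3Lok s3_hgen c3w (by decide) c3_spec s3T1_ne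
  obtain ⟨P5, y5, h25, hy5, hy51, _, hc5, hP5⟩ :=
    conj_class_cert (D := s5L) ψF_inj Tg s5Lok s5_hgen c5w (by decide) c5_spec s5T1_ne
  obtain ⟨g, hg, hgv⟩ := real_Tg_of_pairT y_real_ok
  have hconj : IsConj y3 (⟨g, hg⟩ : Tg) :=
    isConj_of_cert ψF_inj y3 (⟨g, hg⟩ : Tg) hy3v hgv (real_Tg_of_pairT yw_real_ok) yw_conj_ok
  have hord : (⟨g, hg⟩ : Tg) ^ 3 = 1 := by
    apply Subtype.ext
    have := pow_eq_one_of ψF_inj hgv y_ord_ok
    simpa only [Subgroup.coe_pow, Subgroup.coe_one] using this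
  have hnorm := normalizes_cert (D := s5L) ψF_inj Tg s5Lok hex5 P5 hP5 (⟨g, hg⟩ : Tg) yP hgv
    yperm yn_spec
  exact ⟨P3, P5, y3, y5, ⟨g, hg⟩, h27, h25, hy31, hy5, hy51, hc3, hc5, hconj, hord, hnorm⟩

/-- transfer of the statement along an isomorphism -/
theorem no_two_trans_of_equiv {A B : Type*} [Group A] [Group B] [Finite A] (e : A ≃* B)
    (hN : Nat.card A = 17971200)
    (cert : ∃ (P3 P5 : Subgroup A) (y3 y5 y : A), Nat.card P3 = 27 ∧ Nat.card P5 = 25 ∧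
      y3 ≠ 1 ∧ y5 ∈ P5 ∧ y5 ≠ 1 ∧ (∀ a ∈ P3, a ≠ 1 → IsConj y3 a) ∧
      (∀ a ∈ P5, a ≠ 1 → IsConj y5 a) ∧ IsConj y3 y ∧ y ^ 3 = 1 ∧ ∀ a ∈ P5, y⁻¹ * a * y ∈ P5)
    {Ω : Type*} [Fintype Ω] [MulAction B Ω] [FaithfulSMul B Ω] (hΩ : 3 ≤ Fintype.card Ω) :
    ¬ MulAction.IsMultiplyPretransitive B Ω 2 := by
  intro h
  letI : MulAction A Ω := MulAction.compHom Ω e.toMonoidHom
  have hsmul : ∀ (a : A) (x : Ω), a • x = e a • x := fun _ _ => rfl
  haveI : FaithfulSMul A Ω := ⟨by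
    intro a b hab
    apply e.injective
    apply FaithfulSMul.eq_of_smul_eq_smul (α := Ω)
    intro x
    rw [← hsmul, ← hsmul]
    exact hab x⟩
  obtain ⟨P3, P5, y3, y5, y, h27, h25, hy31, hy5, hy51, hc3, hc5, hconj, hord, hnorm⟩ := cert
  refine TwoTrans.no_two_trans (G := A) (Ω := Ω) hN hΩ P3 P5 h27 h25 y3 y5 y hy31 hy5 hy51 hc3
    hc5 hconj hord hnorm ?_
  rw [MulAction.is_two_pretransitive_iff] at h ⊢
  intro a b c d hab hcd
  obtain ⟨g, h1, h2⟩ := h hab hcd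
  refine ⟨e.symm g, ?_, ?_⟩
  · rw [hsmul, e.apply_symm_apply]; exact h1
  · rw [hsmul, e.apply_symm_apply]; exact h2

theorem comm_equiv_of_eq {G : Type*} [Group G] {A B : Subgroup G} (h : A = B) :
    Nonempty (commutator B ≃* commutator A) := by
  subst h
  exact ⟨MulEquiv.refl _⟩

theorem equiv_of_eq {G : Type*} [Group G] {A B : Subgroup G} (h : A = B) : Nonempty (B ≃* A) := by
  subst h
  exact ⟨MulEquiv.refl _⟩

/-- the Tits group of the Prelude is isomorphic to `Tg` -/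
theorem tits_equiv : Nonempty (Tg ≃* TitsGroup) := by
  obtain ⟨e1⟩ := comm_equiv_of_eq (A := twistedF4 (ZMod 2) 1) (B := Lg) twistedF4_eq_Lg
  obtain ⟨e2⟩ := equiv_of_eq (G := Lg) (A := commutator Lg) (B := Tg.subgroupOf Lg) comm_eq
  have e3 : Tg ≃* Tg.subgroupOf Lg := (Subgroup.subgroupOfEquivOfLe Tg_le_Lg).symm
  exact ⟨(e3.trans e2).trans e1⟩

theorem tg_finite : Finite Tg := inferInstance

theorem tits_no_two_trans_aux (e : Tg ≃* TitsGroup) {Ω : Type*} [Fintype Ω]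
    [MulAction TitsGroup Ω] [FaithfulSMul TitsGroup Ω] (hΩ : 3 ≤ Fintype.card Ω) :
    ¬ MulAction.IsMultiplyPretransitive TitsGroup Ω 2 := by
  have hfin := tg_finite
  have key := @no_two_trans_of_equiv Tg TitsGroup _ _ _ e card_Tg tg_cert
  exact key hΩ

theorem tits_no_two_trans {Ω : Type*} [Fintype Ω] [MulAction TitsGroup Ω]
    [FaithfulSMul TitsGroup Ω] (hΩ : 3 ≤ Fintype.card Ω) :
    ¬ MulAction.IsMultiplyPretransitive TitsGroup Ω 2 := by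
  obtain ⟨e⟩ := tits_equiv
  exact tits_no_two_trans_aux e hΩ

end Cfsg.Agent.Lib.Helper60.F4
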