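import Cfsg.Agent.Lib.Helper60.F4.Spec
import Cfsg.Agent.Lib.Helper60.F4.ChkS2

/-!
The commutator subgroup of `²F₄(2)` (the Tits group) has index two and is simple of order
17971200; assembled from the kernel-checked tables.
-/

set_option autoImplicit false

namespace Cfsg.Agent.Lib.Helper60.F4

open Cfsg Cfsg.Lie Cfsg.Agent.Lib.Helper60.Cert
open Cfsg.Agent.Lib.Helper60.Ru (SData3 SOK3 syl_cert3)

theorem CpOk : COK model CpD := by
  refine COK_sub (D := CD) (D' := CpD) Cok rfl rfl rfl rfl rfl rfl rfl (by decide) ?_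
  intro i hi
  have h := Cok_pr i hi
  simp only [chkPrc, Nat.blt_eq] at h
  exact h

theorem card_Up : Nat.card Up = 2048 := by
  have h := card_L (D := UpL) UpLok ψF_inj hexu2
  exact h

theorem DT_real_Tg : ∀ i < 8775, Real model ψF Tg (DT i) := C_sup (D := CpD) CpOk hexl2

theorem card_Tg_le : Nat.card Tg ≤ 8775 * 2048 := by
  have hw : ∀ l < 2, ∀ i < 8775, Real model ψF Up (UT (bc l i)) := by
    intro l hl i hi
    have h := Cok_b i hi
    simp only [chkB, Bool.and_eq_true, Nat.blt_eq] at h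
    apply UT_real_Up
    interval_cases l
    · exact h.1.1
    · exact h.1.2
  have h := card_C_le (D := CpD) CpOk ψF_inj Up hw
  rw [card_Up] at h
  exact h

theorem real_Tg_of_pairT {tgt i b : ℕ} (h : chkPairT tgt i b = true) : Real model ψF Tg tgt := by
  simp only [chkPairT, Bool.and_eq_true, Nat.blt_eq] at h
  obtain ⟨⟨hi, hb⟩, he⟩ := h
  have h1 : Real model ψF Tg (mulP (DT i) (UT b)) :=
    (DT_real_Tg i hi).mul ((UT_real_Up b hb).mono Up_le_Tg)
  exact h1.of_eq (Nat.eq_of_beq_eq_true he).symm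

theorem s3_hgen : ∀ l < s3D.L.r, Real model ψF Tg (s3D.L.gen l) :=
  fun l hl => real_Tg_of_pairT (allBelow_spec _ _ s3_gc l hl)
theorem s3_hW : ∀ c < s3D.nW, Real model ψF Tg (s3D.W c) :=
  fun c hc => real_Tg_of_pairT (allBelow_spec _ _ s3_wc c hc)
theorem s5_hgen : ∀ l < s5D.L.r, Real model ψF Tg (s5D.L.gen l) :=
  fun l hl => real_Tg_of_pairT (allBelow_spec _ _ s5_gc l hl)
theorem s5_hW : ∀ c < s5D.nW, Real model ψF Tg (s5D.W c) :=
  fun c hc => real_Tg_of_pairT (allBelow_spec _ _ s5_wc c hc)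
theorem s2_hW : ∀ c < s2D.nW, Real model ψF Tg (s2D.W c) :=
  fun c hc => real_Tg_of_pairT (allBelow_spec _ _ s2_wc c hc)

theorem s2ok : SOK3 model s2D where
  l := UpLok
  w := s2ok_w
  fl := s2ok_fl

theorem card_eq_T (n : ℕ) (hpos : 0 < n) (d2 : 2048 ∣ n) (d3 : 27 ∣ n) (d5 : 25 ∣ n)
    (d13 : 13 ∣ n) (hle : n ≤ 8775 * 2048) : n = 17971200 := by
  have e1 : 2048 * 27 ∣ n := Nat.Coprime.mul_dvd_of_dvd_of_dvd (by norm_num) d2 d3
  have e2 : 2048 * 27 * 25 ∣ n := Nat.Coprime.mul_dvd_of_dvd_of_dvd (by norm_num) e1 d5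
  have e3 : 2048 * 27 * 25 * 13 ∣ n := Nat.Coprime.mul_dvd_of_dvd_of_dvd (by norm_num) e2 d13
  obtain ⟨k, rfl⟩ := e3
  have : k = 1 := by omega
  subst this; rfl

theorem card_Tg : Nat.card Tg = 17971200 := by
  have d2 : 2048 ∣ Nat.card Tg := card_dvd_of_lok (D := UpL) ψF_inj Tg UpLok ugen_real_Tg
  have d3 : 27 ∣ Nat.card Tg := card_dvd_of_lok (D := s3L) ψF_inj Tg s3Lok s3_hgen
  have d5 : 25 ∣ Nat.card Tg := card_dvd_of_lok (D := s5L) ψF_inj Tg s5Lok s5_hgen
  exact card_eq_T _ Nat.card_pos d2 d3 d5 thirteen_dvd_Tg card_Tg_le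

theorem prime_cases_T {p : ℕ} (hp : p.Prime) (h : p ∣ 17971200) :
    p = 2 ∨ p = 3 ∨ p = 5 ∨ p = 13 := by
  have e : (17971200 : ℕ) = 2 ^ 11 * (3 ^ 3 * (5 ^ 2 * 13)) := by norm_num
  rw [e] at h
  rcases (Nat.Prime.dvd_mul hp).mp h with h | h
  · left; exact (Nat.prime_dvd_prime_iff_eq hp (by norm_num)).mp (hp.dvd_of_dvd_pow h)
  rcases (Nat.Prime.dvd_mul hp).mp h with h | h
  · right; left; exact (Nat.prime_dvd_prime_iff_eq hp (by norm_num)).mp (hp.dvd_of_dvd_pow h)
  rcases (Nat.Prime.dvd_mul hp).mp h with h | h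
  · right; right; left
    exact (Nat.prime_dvd_prime_iff_eq hp (by norm_num)).mp (hp.dvd_of_dvd_pow h)
  · right; right; right; exact (Nat.prime_dvd_prime_iff_eq hp (by norm_num)).mp h

theorem Tg_simple : IsSimpleGroup Tg := by
  have hc := card_Tg
  haveI : Fact (Nat.Prime 13) := ⟨by norm_num⟩
  refine simple_of_certs ψF_inj Tg 13 (by rw [hc]; norm_num) (by rw [hc]; norm_num)
    lgen 2 lgen_real_Tg lord le_rfl ?_
  intro p hp hpd hp13
  rw [hc] at hpd
  rcases prime_cases_T hp hpd with rfl | rfl | rfl | rfl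
  · haveI : Fact (Nat.Prime 2) := ⟨hp⟩
    exact syl_cert3 ψF_inj Tg s2ok ugen_real_Tg s2_hW (by norm_num [s2D]) 2 11 rfl
      (by rw [hc]; decide)
  · haveI : Fact (Nat.Prime 3) := ⟨hp⟩
    exact syl_cert ψF_inj Tg s3ok s3_hgen s3_hW (by norm_num [s3D]) 3 3 rfl
      (by rw [hc]; decide)
  · haveI : Fact (Nat.Prime 5) := ⟨hp⟩
    exact syl_cert ψF_inj Tg s5ok s5_hgen s5_hW (by norm_num [s5D]) 5 2 rfl
      (by rw [hc]; decide)
  · exact absurd rfl hp13

/-! ### the commutator subgroup -/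

theorem card_TgL : Nat.card (Tg.subgroupOf Lg) = 17971200 :=
  (Nat.card_congr (Subgroup.subgroupOfEquivOfLe Tg_le_Lg).toEquiv).trans card_Tg

theorem arith_idx2 (x : ℕ) (h : x * 17971200 = 35942400) : x = 2 := by omega

theorem idx_TgL : (Tg.subgroupOf Lg).index = 2 := by
  have h1 := (Tg.subgroupOf Lg).index_mul_card
  have h2 : (Tg.subgroupOf Lg).index * 17971200 = 35942400 :=
    (congrArg (fun t => (Tg.subgroupOf Lg).index * t) card_TgL).symm.trans (h1.trans card_Lg)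
  exact arith_idx2 _ h2

theorem comm_le_of_index_two {G : Type*} [Group G] (H : Subgroup G) (h : H.index = 2) :
    commutator G ≤ H := by
  rw [commutator_def, Subgroup.commutator_le]
  intro a _ b _
  rw [commutatorElement_def, mul_assoc, Subgroup.mul_mem_iff_of_index_two h,
    Subgroup.mul_mem_iff_of_index_two h, Subgroup.mul_mem_iff_of_index_two h,
    H.inv_mem_iff, H.inv_mem_iff]

theorem mem_of_val_eq {G : Type*} [Group G] {L : Subgroup G} {K : Subgroup L} {y x : L}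
    (hy : y ∈ K) (h : (y : G) = (x : G)) : x ∈ K := by
  have : y = x := Subtype.ext h
  rw [← this]; exact hy

theorem comm_eq : commutator Lg = Tg.subgroupOf Lg := by
  apply le_antisymm
  · exact comm_le_of_index_two _ idx_TgL
  · intro x hx
    obtain ⟨y, hy, hyv⟩ := Tg_le_comm (Subgroup.mem_subgroupOf.mp hx)
    exact mem_of_val_eq hy hyv

theorem lgen_ncomm : model.neq (mulP (lgen 0) (lgen 1)) (mulP (lgen 1) (lgen 0)) = true := by
  decide +kernel

theorem comm_of_isMulComm {G : Type*} [Group G] {T : Subgroup G} (h : IsMulCommutative T)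
    {a b : G} (ha : a ∈ T) (hb : b ∈ T) : a * b = b * a := by
  have h1 : (⟨a, ha⟩ : T) * ⟨b, hb⟩ = ⟨b, hb⟩ * ⟨a, ha⟩ := h.is_comm.comm _ _
  exact congrArg Subtype.val h1

theorem Tg_not_comm : ¬ IsMulCommutative Tg := by
  intro h
  obtain ⟨a, haT, hav⟩ := lgen_real_Tg 0 (by norm_num)
  obtain ⟨b, hbT, hbv⟩ := lgen_real_Tg 1 (by norm_num)
  have h2 : a * b = b * a := comm_of_isMulComm h haT hbT
  have h3 := congrArg ψF h2
  rw [map_mul, map_mul, hav, hbv] at h3
  apply model.toM_ne lgen_ncomm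
  change toMat (mulP (lgen 0) (lgen 1)) = toMat (mulP (lgen 1) (lgen 0))
  rw [toMat_mulP, toMat_mulP]
  exact h3

theorem simple_of_equiv' {A B : Type*} [Group A] [Group B] (h : IsSimpleGroup A) (e : A ≃* B) :
    IsSimpleGroup B := e.symm.isSimpleGroup

theorem not_comm_of_equiv {A B : Type*} [Group A] [Group B] (h : ¬ IsMulCommutative A)
    (e : A ≃* B) : ¬ IsMulCommutative B := by
  intro hB
  apply h
  refine ⟨⟨fun x y => ?_⟩⟩
  apply e.injective
  rw [map_mul, map_mul]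
  exact hB.is_comm.comm _ _

/-- the statement for a group given as `Lg` -/
def TitsFacts (X : Subgroup GLf) : Prop :=
  (commutator X).index = 2 ∧ IsSimpleGroup (commutator X) ∧
    ¬ IsMulCommutative (commutator X) ∧ Nat.card (commutator X) = 2 ^ 11 * 3 ^ 3 * 5 ^ 2 * 13

theorem facts_of_eq {G : Type*} [Group G] {A B : Subgroup G} (h : A = B)
    (h1 : B.index = 2) (h2 : IsSimpleGroup B) (h3 : ¬ IsMulCommutative B) {n : ℕ}
    (h4 : Nat.card B = n) :
    A.index = 2 ∧ IsSimpleGroup A ∧ ¬ IsMulCommutative A ∧ Nat.card A = n := by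
  subst h
  exact ⟨h1, h2, h3, h4⟩

theorem arith_tits : (17971200 : ℕ) = 2 ^ 11 * 3 ^ 3 * 5 ^ 2 * 13 := by norm_num

theorem subOf_simple {G : Type*} [Group G] {T L : Subgroup G} (hle : T ≤ L)
    (h : IsSimpleGroup T) : IsSimpleGroup (T.subgroupOf L) :=
  simple_of_equiv' h (Subgroup.subgroupOfEquivOfLe hle).symm

theorem subOf_not_comm {G : Type*} [Group G] {T L : Subgroup G} (hle : T ≤ L)
    (h : ¬ IsMulCommutative T) : ¬ IsMulCommutative (T.subgroupOf L) :=
  not_comm_of_equiv h (Subgroup.subgroupOfEquivOfLe hle).symm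

theorem tits_Lg : TitsFacts Lg :=
  facts_of_eq comm_eq idx_TgL (subOf_simple Tg_le_Lg Tg_simple)
    (subOf_not_comm Tg_le_Lg Tg_not_comm) (card_TgL.trans arith_tits)

theorem tits_main : TitsFacts (twistedF4 (ZMod 2) 1) := by
  rw [twistedF4_eq_Lg]; exact tits_Lg

end Cfsg.Agent.Lib.Helper60.F4
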